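import Cfsg.Agent.H573.Spor.MSeven
import Cfsg.Agent.BpSpor.MBigEleven
import Cfsg.Agent.H199.NSmMon

/-!
# S3509, Monster: `7 ^ 6 ∤ |C(x)|` for `x` of order 7 commuting with no involution (helper711)
-/

set_option autoImplicit false
set_option maxRecDepth 100000

namespace Cfsg.Agent.H711.RM

open Subgroup Cfsg Cfsg.Agent.LThreeMB
open Cfsg.Agent.BpSpor.MBigModel (MG card_M)
open Cfsg.Agent.H199.NSmAbs (exists_common)

/-- **`7 ^ 6` does not divide `|C(x)|`** -/
theorem n76_of (he7 : ∀ {x w : MG}, orderOf w = 7 → Spor.IsoHe (XX w) → orderOf x = 7 → x * w = w * x →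
      ∃ t : MG, orderOf t = 2 ∧ t * x = x * t)
    {x : MG} (hx : orderOf x = 7) (he : ¬ ∃ t : MG, orderOf t = 2 ∧ t * x = x * t) :
    ¬ 7 ^ 6 ∣ Nat.card ↥(centralizer ({x} : Set MG)) := by
  have hfin : Finite MG := BpSpor.MBigModel.finite
  intro h
  obtain ⟨a, ha, hN⟩ : ∃ a : MG, orderOf a = 7 ∧ Spor.IsoHe (XX a) := Cfsg.Agent.H573.Spor.Monster.exists_he
  obtain ⟨c, e, heo, heN, het⟩ := exists_common (p := 7) (n := 6) (a := 6) (b := 1) (by norm_num)
    (by rw [card_M]; norm_num) (N := centralizer ({x} : Set MG)) (T := zpowers a) h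
    (by rw [Nat.card_zpowers, ha]; norm_num) (by norm_num)
  have heo' : orderOf (c * e * c⁻¹) = 7 := by
    rw [← heo]
    exact MulEquiv.orderOf_eq (MulAut.conj c) e
  have hz : zpowers (c * e * c⁻¹) = zpowers a := by
    apply Subgroup.eq_of_le_of_card_ge
    · rw [zpowers_le]; exact het
    · rw [Nat.card_zpowers, Nat.card_zpowers, heo', ha]
  obtain ⟨j, hj⟩ : a ∈ zpowers (c * e * c⁻¹) := by rw [hz]; exact mem_zpowers _
  have hj' : (c * e * c⁻¹) ^ j = a := hj
  have h1 : Commute (c * x * c⁻¹) (c * e * c⁻¹) := by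
    have h2 := mem_centralizer_singleton_iff.1 heN
    show _ * _ = _ * _
    calc c * x * c⁻¹ * (c * e * c⁻¹) = c * (x * e) * c⁻¹ := by group
      _ = c * (e * x) * c⁻¹ := by rw [h2]
      _ = _ := by group
  obtain ⟨t, ht, htx⟩ := he7 (x := c * x * c⁻¹) (w := a) ha hN (by rw [← hx]; exact MulEquiv.orderOf_eq (MulAut.conj c) x)
    (by rw [← hj']; exact (h1.zpow_right j).eq)
  apply he
  refine ⟨c⁻¹ * t * c, ?_, ?_⟩
  · rw [← ht]
    have := MulEquiv.orderOf_eq (MulAut.conj c⁻¹) t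
    rwa [MulAut.conj_apply, inv_inv] at this
  · calc c⁻¹ * t * c * x = c⁻¹ * (t * (c * x * c⁻¹)) * c := by group
      _ = c⁻¹ * (c * x * c⁻¹ * t) * c := by rw [htx]
      _ = _ := by group

end Cfsg.Agent.H711.RM
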